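import Cfsg.Agent.H32.SR.Odd
import Cfsg.Agent.H858.Loc7
import Cfsg.Agent.H858.Norm57
import Cfsg.Agent.H860.PartFiveSeven

/-!
# `J₄` has non-real elements of order 7 (helper32, for S4971)
-/

set_option autoImplicit false

namespace Cfsg.Agent.H32.SR

open Subgroup Cfsg Cfsg.Agent.H721.SR Cfsg.Agent.H858

theorem nrel_J4 : NRel Spor.J4 := by
  have : Finite Spor.J4 := VK.finite_J4
  refine nrel_of_card (p := 7) (k := 3) (by norm_num) (by norm_num) Norm57.card_S7 (by decide) ?_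
  rw [Norm57.card_normalizer_S7, Loc7.card_C]

theorem nrel_j4 {K : Type*} [Group K] (h : Cfsg.Spor.IsoJ4 K) : NRel K := by
  obtain ⟨e⟩ := h
  exact nrel_J4.congr e.symm

theorem rr_j4 {K : Type*} [Group K] (h : Cfsg.Spor.IsoJ4 K) : RR K := RR.of_nrel (nrel_j4 h)

end Cfsg.Agent.H32.SR
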