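import Mathlib
import Cfsg.Agent.H721.SR.Base

/-!
# Non-real elements of odd prime order (helper32, for S4971)

If `P` is a subgroup of odd prime order and `|N(P) : C(P)|` is odd then the generators of `P` are not real.
-/

set_option autoImplicit false

namespace Cfsg.Agent.H32.SR

open Subgroup Cfsg.Agent.H721.SR

theorem inv_conj {G : Type*} [Group G] {x g : G} (hg : g * x * g⁻¹ = x⁻¹) : g⁻¹ * x * g = x⁻¹ := by
  have h3 : x = (g * x * g⁻¹)⁻¹ := by rw [hg, inv_inv]
  calc g⁻¹ * x * g = g⁻¹ * (g * x * g⁻¹)⁻¹ * g := by rw [← h3]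
    _ = x⁻¹ := by group

/-- `x` is not real if `|N(P) : C(P)|` is odd, `P = ⟨x⟩`, `x² ≠ 1`. -/
theorem not_real_of_odd {G : Type*} [Group G] {x : G} (hx : x * x ≠ 1)
    (h : Odd ((centralizer (zpowers x : Set G)).relIndex (normalizer (zpowers x : Set G)))) :
    ¬ IsConj x x⁻¹ := by
  intro hc
  obtain ⟨g, hg⟩ := isConj_iff.1 hc
  have key : ∀ a : G, a * x * a⁻¹ = x⁻¹ → ∀ y ∈ zpowers x, a * y * a⁻¹ ∈ zpowers x := by
    rintro a ha y ⟨k, rfl⟩
    refine ⟨-k, ?_⟩
    show x ^ (-k) = a * x ^ k * a⁻¹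
    rw [zpow_neg, ← inv_zpow, ← ha, conj_zpow]
  have hgN : g ∈ normalizer (zpowers x : Set G) := by
    rw [mem_normalizer_iff]
    intro y
    refine ⟨fun hy => key g hg y hy, fun hy => ?_⟩
    have h1 := key g⁻¹ (by rw [inv_inv]; exact inv_conj hg) _ hy
    have h2 : g⁻¹ * (g * y * g⁻¹) * g⁻¹⁻¹ = y := by group
    rwa [h2] at h1
  set N := normalizer (zpowers x : Set G) with hN
  set C := centralizer (zpowers x : Set G) with hC
  have hCn : (C.subgroupOf N).Normal := by
    constructor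
    intro n hn m
    rw [mem_subgroupOf] at hn ⊢
    rw [hC, mem_centralizer_iff] at hn ⊢
    intro z hz
    have hm := (mem_normalizer_iff.1 (inv_mem m.2) z).1 hz
    rw [inv_inv] at hm
    have h1 := hn _ hm
    show z * ((m : G) * n * (m : G)⁻¹) = ((m : G) * n * (m : G)⁻¹) * z
    have h2 : (m : G) * ((m : G)⁻¹ * z * m * n) * (m : G)⁻¹ = (m : G) * (n * ((m : G)⁻¹ * z * m)) * (m : G)⁻¹ := by
      rw [h1]
    calc z * ((m : G) * n * (m : G)⁻¹) = (m : G) * ((m : G)⁻¹ * z * m * n) * (m : G)⁻¹ := by group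
      _ = (m : G) * (n * ((m : G)⁻¹ * z * m)) * (m : G)⁻¹ := h2
      _ = _ := by group
  have hk : (⟨g, hgN⟩ : N) ^ (C.subgroupOf N).index ∈ C.subgroupOf N := pow_index_mem _ _
  have hk1 : g ^ (C.relIndex N) ∈ C := hk
  have hxz : x ∈ (zpowers x : Set G) := mem_zpowers x
  have hk2 : Commute x (g ^ (C.relIndex N)) := mem_centralizer_iff.1 hk1 x hxz
  have hg2 : Commute x (g * g) := by
    have h1 : g * x = x⁻¹ * g := mul_inv_eq_iff_eq_mul.1 hg
    have h2 : g * x⁻¹ = x * g := by
      have h3 : g * x⁻¹ * g⁻¹ = x := by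
        have h4 : g * x⁻¹ * g⁻¹ = (g * x * g⁻¹)⁻¹ := by group
        rw [h4, hg, inv_inv]
      exact mul_inv_eq_iff_eq_mul.1 h3
    show x * (g * g) = g * g * x
    rw [mul_assoc g g x, h1, ← mul_assoc g, h2, mul_assoc]
  obtain ⟨m, hm⟩ := h
  have hgx : Commute x g := by
    have h1 : Commute x (g ^ (2 * m)) := by rw [pow_mul, pow_two]; exact hg2.pow_right m
    rw [hm, pow_succ] at hk2
    have h2 : Commute x ((g ^ (2 * m))⁻¹ * (g ^ (2 * m) * g)) := (h1.inv_right).mul_right hk2
    rwa [inv_mul_cancel_left] at h2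
  apply hx
  have h1 : g * x * g⁻¹ = x := by rw [← hgx.eq]; group
  rw [h1] at hg
  nth_rewrite 2 [hg]
  exact mul_inv_cancel x

/-- **Non-real elements**: a subgroup `P` of odd prime order with `|N(P)| = k |C(P)|`, `k` odd. -/
theorem nrel_of_card {G : Type*} [Group G] [Finite G] {p k : ℕ} (hp : p.Prime) (hp2 : p ≠ 2) {P : Subgroup G}
    (hP : Nat.card P = p) (hk : Odd k)
    (hN : Nat.card (normalizer (P : Set G)) = k * Nat.card (centralizer (P : Set G))) : NRel G := by
  have := Fact.mk hp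
  have hcyc : IsCyclic P := isCyclic_of_prime_card hP
  obtain ⟨x, hx⟩ := hcyc.exists_generator
  have hPx : P = zpowers (x : G) := by
    apply le_antisymm
    · intro y hy
      obtain ⟨i, hi⟩ := hx ⟨y, hy⟩
      exact ⟨i, by simpa using congrArg Subtype.val hi⟩
    · rw [zpowers_le]; exact x.2
  refine ⟨x, not_real_of_odd ?_ ?_⟩
  · intro h
    have h1 : orderOf (x : G) = p := by rw [← Nat.card_zpowers, ← hPx, hP]
    have h2 : orderOf (x : G) ∣ 2 := orderOf_dvd_of_pow_eq_one (by rw [pow_two]; exact h)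
    rw [h1] at h2
    exact hp2 ((Nat.prime_dvd_prime_iff_eq hp Nat.prime_two).1 h2)
  · rw [← hPx]
    have hle : centralizer (P : Set G) ≤ normalizer (P : Set G) := by
      intro g hg
      rw [mem_centralizer_iff] at hg
      have h0 : ∀ h ∈ P, g * h * g⁻¹ = h := fun h hh => by rw [← hg h hh]; group
      rw [mem_normalizer_iff]
      intro h
      refine ⟨fun hh => by rw [h0 h hh]; exact hh, fun hh => ?_⟩
      have h1 : g * (g * h * g⁻¹) * g⁻¹ = g * h * g⁻¹ := h0 _ hh
      have h2 : g * h * g⁻¹ = h := by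
        have h3 := mul_right_cancel h1
        exact mul_left_cancel h3
      rwa [h2] at hh
    have h1 := card_mul_index ((centralizer (P : Set G)).subgroupOf (normalizer (P : Set G)))
    rw [Nat.card_congr (subgroupOfEquivOfLe hle).toEquiv, hN] at h1
    have h2 : 0 < Nat.card (centralizer (P : Set G)) := Nat.card_pos
    have h3 : (centralizer (P : Set G)).relIndex (normalizer (P : Set G)) = k := by
      apply Nat.eq_of_mul_eq_mul_left h2
      rw [mul_comm _ k]
      exact h1
    rw [h3]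
    exact hk

end Cfsg.Agent.H32.SR
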